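/-
Project LQ (S1769), steps FR and STA1: a Frattini argument and the strong closure of `V` in involution centralisers.
-/
import Cfsg.Agent.LQ.Defs
import Cfsg.Agent.Loc.FusAG

set_option autoImplicit false
open Cfsg Matrix Subgroup CL.Grp CL.Even CL.Loc
open scoped commutatorElement

namespace CL.LQ

universe u v

theorem fr : All.{u, v} @FR := by
  intro G _ _ n F _ _ _ e he V0 T h0 hn hT g hg
  have : Fact (Nat.Prime 2) := ⟨Nat.prime_two⟩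
  have sV : IsSylowIn 2 (S e ⊓ 𝒞(V e)) 𝒞(V e) :=
    (he.syl.of_le (S_le_NV e) le_top).inf_of_normalized (cent_le_norm _) (norm_le_norm_cent _)
  have o1 := core_norm_le_cent (he.isP.to_le (V_le_S e))
  have o2 := cent_le_sup_core sV fun x hx => he.mem_V_of_cent hx.1 hx.2
  have o3 : S e ≤ 𝒩(pPrimeCoreOf 2 𝒩(V e)) := (S_le_NV e).trans (le_normalizer_pPrimeCoreOf 2 _)
  obtain ⟨k, hk⟩ := IsPGroup.iff_card.1 he.isP
  have o4 : Disjoint (S e) (pPrimeCoreOf 2 𝒩(V e)) :=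
    disjoint_of_coprime_natCard (hk ▸ (pPrimeCoreOf_coprime 2 _).symm.pow_left k)
  generalize pPrimeCoreOf 2 𝒩(V e) = O at o1 o2 o3 o4
  have SH : S e ≤ 𝒩(V e) ⊓ 𝒩(V0) := le_inf (S_le_NV e) hn
  have nT : 𝒩(V e) ⊓ 𝒩(V0) ≤ 𝒩(𝒩(V e) ⊓ 𝒩(V0) ⊓ (cmod (V e) V0 ⊓ 𝒞(V0))) :=
    le_norm_inf le_normalizer (le_norm_inf (le_norm_cmod inf_le_left inf_le_right) (le_norm_cent inf_le_right))
  have sT := (he.syl.of_le SH le_top).inf_of_normalized inf_le_left nT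
  have eT : S e ⊓ (𝒩(V e) ⊓ 𝒩(V0) ⊓ (cmod (V e) V0 ⊓ 𝒞(V0))) = T := Subgroup.ext fun x => by
    rw [hT]
    exact ⟨fun h => ⟨h.1, fun v hv => commutatorElement_inv v x ▸ inv_mem (h.2.2.1.2 v hv), fun v hv =>
        commutatorElement_eq_one_iff_mul_comm.2 (comm_of_mem h.2.2.2 hv).symm⟩,
      fun h => ⟨h.1, SH h.1, ⟨hn h.1, fun v hv => commutatorElement_inv x v ▸ inv_mem (h.2.1 v hv)⟩,
        fun v hv => (commutatorElement_eq_one_iff_mul_comm.1 (h.2.2 v hv)).symm⟩⟩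
  rw [eT] at sT
  have TS : T ≤ S e := fun x hx => ((hT x).1 hx).1
  have VT : V e ≤ T := fun x hx => (hT x).2 ⟨V_le_S e hx, fun v hv => by
    rw [commutatorElement_eq_one_iff_mul_comm.2 (V_comm hx hv)]; exact one_mem _,
    fun v hv => commutatorElement_eq_one_iff_mul_comm.2 (V_comm hx (h0 hv))⟩
  have le := le_of_syl_of_res sT (le_sup_right : T ≤ O ⊔ T) (res_le_of fun x hx hc =>
    (o2.trans (sup_le (VT.trans le_sup_right) le_sup_left))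
      (mem_cent_of_coprime (he.isP.to_le (h0.trans (V_le_S e))) hc hx.2.1.2 hx.2.2))
  obtain ⟨a, ha, ag⟩ := sT.frattini nT hg
  obtain ⟨c, hc, t, ht, e1⟩ := (mem_sup_nl (TS.trans o3)).1 (le (inv_mem ha))
  have e2 : ∀ x, g * x * g⁻¹ = c * (t * (a * g) * x * (t * (a * g))⁻¹) * c⁻¹ := fun x => by
    have : c = a⁻¹ * t⁻¹ := by rw [← e1, mul_inv_cancel_right]
    rw [this]
    group
  have mH : t * (a * g) ∈ 𝒩(V e) ⊓ 𝒩(V0) := mul_mem (SH (TS ht)) (mul_mem ha.1 hg)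
  have mT : t * (a * g) ∈ 𝒩(T) := mul_mem (le_normalizer ht) ag
  refine ⟨t * (a * g), ⟨mH, mT⟩, fun v hv => ?_, fun x hx k => ?_⟩
  · rw [e2, conj_eq_of_mem (o1 hc) (conj_mem mH.1 hv)]
  · have k1 := TS (conj_mem mT hx)
    rw [e2] at k ⊢
    generalize t * (a * g) * x * (t * (a * g))⁻¹ = y at k k1
    refine mul_inv_eq_one.1 (disjoint_def.1 o4 (mul_mem k (inv_mem k1)) ?_)
    simpa only [mul_assoc] using mul_mem hc (conj_mem (o3 k1) (inv_mem hc))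

namespace FRx

theorem lem (h2 : All.{u, v} @NQ) (h3 : All.{u, v} @FR) (h4 : All.{u, v} @PTS) {G : Type u} [Group G] [Finite G]
    {n : ℕ} {F : Type v} [Field F] [Finite F] [CharP F 2] {e : U (n + 2) F →* G} (he : St e) {z g t : G}
    (hz : z ∈ Z e) (z1 : z ≠ 1) (hg : g ∈ 𝒩(W e)) (gz : g * z * g⁻¹ = z) (ht : t ∈ V e) (k : g * t * g⁻¹ ∈ S e) :
    g * t * g⁻¹ ∈ V e := by
  have gZ : g ∈ 𝒩(Z e) := cj_eq_iff_mem.1 (((h4 e he).ti g hg).resolve_right fun k =>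
    z1 (mem_bot.1 (k ▸ mem_inf.2 ⟨gz ▸ conj_mem_cj g hz, hz⟩)))
  have h := h3 (sy e) he.symm (Z e) (Q e)
  simp only [S_sy, V_sy] at h
  obtain ⟨m, hm, -, k2⟩ := h (Z_le_W e) ((S_le_CZ e).trans (cent_le_norm _))
    (fun x => ⟨fun hx => ⟨Q_le_S e hx, fun w hw => comm_Q hx (W_le_Q e hw), fun v hv =>
      commutatorElement_eq_one_iff_mul_comm.2 (Z_comm hv (Q_le_S e hx)).symm⟩, fun hx => he.mem_Q_of_W hx.1 hx.2.1⟩)
    g ⟨hg, gZ⟩
  rw [k2 t (V_le_Q e ht) k]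
  exact conj_mem (h2 e he m ((cj_eq hm.2).le.trans (Q_le_S e))).1 ht

end FRx

theorem sta1 (h1 : All.{u, v} @ML) (h2 : All.{u, v} @NQ) (h3 : All.{u, v} @FR) (h4 : All.{u, v} @PTS) :
    All.{u, v} @STA1 := by
  intro G _ _ n F _ _ _ e he z hz z1 g hg v hv k
  have h : S e ≤ centralizer {z} := fun x hx => mem_centralizer_singleton_iff.2 (Z_comm hz hx).symm
  have he' := he.res h
  have hz' : (⟨z, h (Z_le_S e hz)⟩ : centralizer {z}) ∈ Z (rs e _ h) := by rw [Z_rs]; exact hz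
  have zc : ∀ x : centralizer {z}, x * ⟨z, h (Z_le_S e hz)⟩ * x⁻¹ = ⟨z, h (Z_le_S e hz)⟩ := fun x =>
    mul_inv_eq_iff_eq_mul.2 (Subtype.ext (mem_centralizer_singleton_iff.1 x.2))
  have z1' : (⟨z, h (Z_le_S e hz)⟩ : centralizer {z}) ≠ 1 := fun e => z1 (congrArg Subtype.val e)
  have key := h1 _ he' (fun T g => ∀ t ∈ T, t ∈ V (rs e _ h) ↔ g * t * g⁻¹ ∈ V (rs e _ h))
    ⟨fun hAB k t ht => k t (hAB ht), fun {A a b} k1 k2 t ht => by
      rw [k1 t ht, k2 (a * t * a⁻¹) ⟨t, ht, rfl⟩]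
      simp only [_root_.mul_inv_rev, mul_assoc], fun {A a} k1 => by
      rintro _ ⟨t, ht, rfl⟩
      change a * t * a⁻¹ ∈ _ ↔ a⁻¹ * (a * t * a⁻¹) * a⁻¹⁻¹ ∈ _
      rw [← k1 t ht]
      simp only [mul_assoc, inv_mul_cancel_left, mul_inv_cancel, mul_one]⟩
    (fun T t _ => by rw [one_mul, inv_one, mul_one])
    (fun T hT a ha k t ht => by
      rcases k with k | k | k
      · exact mem_normalizer_iff.1 k t
      · refine ⟨fun k1 => FRx.lem h2 h3 h4 he' hz' z1' k (zc a) k1 (hT (conj_mem ha ht)), fun k1 => ?_⟩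
        have e1 : a⁻¹ * (a * t * a⁻¹) * a⁻¹⁻¹ = t := by group
        exact e1 ▸ FRx.lem h2 h3 h4 he' hz' z1' (inv_mem k) (zc a⁻¹) k1 (e1.symm ▸ hT ht)
      · rw [conj_eq_of_mem k ht])
    (zpowers ⟨v, h (V_le_S e hv)⟩) (zpowers_le.2 (by rw [S_rs]; exact V_le_S e hv)) ⟨g, hg⟩
    (by rw [MonoidHom.map_zpowers, zpowers_le, S_rs]; exact k) _ (mem_zpowers _)
  rw [V_rs] at key
  exact key.1 hv

end CL.LQ
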